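import Mathlib
import Cfsg.Agent.Lib.Helper24.ES3.Defs

set_option autoImplicit false

namespace Cfsg.Agent.Lib.Helper24.ES3

variable {G : Type*} [Group G]

/-- `A ⟨z⟩` for `z` centralizing `A` -/
def A5_mulZ (A : Subgroup G) (z : G) (hz : ∀ a ∈ A, a * z = z * a) : Subgroup G where
  carrier := {x | ∃ a ∈ A, ∃ j : ℤ, x = a * z ^ j}
  one_mem' := ⟨1, A.one_mem, 0, by simp⟩
  mul_mem' := by
    rintro _ _ ⟨a, ha, j, rfl⟩ ⟨b, hb, k, rfl⟩
    refine ⟨a * b, A.mul_mem ha hb, j + k, ?_⟩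
    have hc : Commute b (z ^ j) := (show Commute b z from hz b hb).zpow_right j
    rw [zpow_add, mul_assoc a, ← mul_assoc (z ^ j), ← hc.eq]
    simp only [mul_assoc]
  inv_mem' := by
    rintro _ ⟨a, ha, j, rfl⟩
    refine ⟨a⁻¹, A.inv_mem ha, -j, ?_⟩
    have hc : Commute a⁻¹ (z ^ (-j)) :=
      ((show Commute a z from hz a ha).inv_left).zpow_right (-j)
    rw [mul_inv_rev, ← zpow_neg, hc.eq]

theorem A5_orderOf {p : ℕ} [Fact p.Prime] {P : Subgroup G} {z : G} (h : Dat p P z) :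
    orderOf z = p := orderOf_eq_prime (h.exp z h.zP) h.z1

theorem A5_not_comm [Finite G] {p : ℕ} [Fact p.Prime] {P : Subgroup G} {z : G} (h : Dat p P z) :
    ¬ ∀ x ∈ P, ∀ y ∈ P, x * y = y * x := by
  intro hc
  have hp : p.Prime := Fact.out
  have hle : P ≤ Subgroup.zpowers z := by
    intro x hx
    obtain ⟨k, rfl⟩ := h.cen x hx (hc x hx)
    exact Subgroup.npow_mem_zpowers z k
  have h1 := Subgroup.card_le_of_le hle
  rw [h.card, Nat.card_zpowers, A5_orderOf h] at h1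
  have h2 : p ^ 1 < p ^ 3 := Nat.pow_lt_pow_right hp.one_lt (by norm_num)
  rw [pow_one] at h2
  omega

/-- A5 -/
theorem z_mem_of_card_sq [Finite G] {p : ℕ} [Fact p.Prime] {P : Subgroup G} {z : G} (h : Dat p P z)
    {A : Subgroup G} (hAP : A ≤ P) (hA : Nat.card A = p ^ 2) : z ∈ A := by
  have hp : p.Prime := Fact.out
  by_contra hzA
  have hz : ∀ a ∈ A, a * z = z * a := fun a ha => h.zc a (hAP ha)
  set H := A5_mulZ A z hz with hH
  have hAH : A ≤ H := fun a ha => ⟨a, ha, 0, by simp⟩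
  have hzH : z ∈ H := ⟨1, A.one_mem, 1, by simp⟩
  have hHP : H ≤ P := by
    rintro _ ⟨a, ha, j, rfl⟩
    exact P.mul_mem (hAP ha) (P.zpow_mem h.zP j)
  have hlt : p ^ 2 < Nat.card H := by
    by_contra hcon
    have : A = H := Subgroup.eq_of_le_of_card_ge hAH (by rw [hA]; omega)
    exact hzA (this ▸ hzH)
  have hdvd : Nat.card H ∣ p ^ 3 := h.card ▸ Subgroup.card_dvd_of_le hHP
  obtain ⟨k, hk, hk2⟩ := (Nat.dvd_prime_pow hp).mp hdvd
  have hk3 : k = 3 := by
    rw [hk2] at hlt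
    have := (Nat.pow_lt_pow_iff_right hp.one_lt).mp hlt
    omega
  have hHeq : H = P := Subgroup.eq_of_le_of_card_ge hHP (by rw [h.card, hk2, hk3])
  have hAc : ∀ a ∈ A, ∀ b ∈ A, a * b = b * a := by
    intro a ha b hb
    have hcm : IsMulCommutative A := IsPGroup.isMulCommutative_of_card_eq_prime_sq hA
    have := hcm.is_comm.comm (⟨a, ha⟩ : A) ⟨b, hb⟩
    exact congrArg Subtype.val this
  apply A5_not_comm h
  intro x hx y hy
  rw [← hHeq] at hx hy
  obtain ⟨a, ha, j, rfl⟩ := hx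
  obtain ⟨b, hb, k, rfl⟩ := hy
  have c1 : Commute a b := hAc a ha b hb
  have c2 : Commute a (z ^ k) := (show Commute a z from hz a ha).zpow_right k
  have c3 : Commute (z ^ j) b := ((show Commute b z from hz b hb).zpow_right j).symm
  have c4 : Commute (z ^ j) (z ^ k) := Commute.zpow_zpow_self z j k
  exact ((c1.mul_right c2).mul_left (c3.mul_right c4)).eq

/-- A6 -/
theorem mem_of_card_sq [Finite G] {p : ℕ} [Fact p.Prime] {P : Subgroup G} {z : G} (h : Dat p P z)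
    {A : Subgroup G} (hAP : A ≤ P) (hA : Nat.card A = p ^ 2) (hz : z ∈ A)
    {w : G} (hw : w ∈ A) (hwz : ∀ k : ℕ, w ≠ z ^ k) :
    ∀ x ∈ A, ∃ i j : ℕ, x = w ^ i * z ^ j := by
  have hp : p.Prime := Fact.out
  have hzw : ∀ a ∈ Subgroup.zpowers w, a * z = z * a := by
    intro a ha
    exact h.zc a (hAP ((Subgroup.zpowers_le.mpr hw) ha))
  set H := A5_mulZ (Subgroup.zpowers w) z hzw with hH
  have hZH : Subgroup.zpowers z ≤ H := by
    rw [Subgroup.zpowers_le]
    exact ⟨1, Subgroup.one_mem _, 1, by simp⟩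
  have hwH : w ∈ H := ⟨w, Subgroup.mem_zpowers w, 0, by simp⟩
  have hHA : H ≤ A := by
    rintro _ ⟨a, ha, j, rfl⟩
    exact A.mul_mem ((Subgroup.zpowers_le.mpr hw) ha) (A.zpow_mem hz j)
  have hwZ : w ∉ Subgroup.zpowers z := by
    intro hmem
    rw [← mem_powers_iff_mem_zpowers, Submonoid.mem_powers_iff] at hmem
    obtain ⟨k, hk⟩ := hmem
    exact hwz k hk.symm
  have hlt : p < Nat.card H := by
    by_contra hcon
    have : Subgroup.zpowers z = H := Subgroup.eq_of_le_of_card_ge hZH (by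
      rw [Nat.card_zpowers, A5_orderOf h]; omega)
    exact hwZ (this ▸ hwH)
  have hdvd : Nat.card H ∣ p ^ 2 := hA ▸ Subgroup.card_dvd_of_le hHA
  obtain ⟨k, hk, hk2⟩ := (Nat.dvd_prime_pow hp).mp hdvd
  have hk3 : k = 2 := by
    rw [hk2] at hlt
    have : p ^ 1 < p ^ k := by simpa using hlt
    have := (Nat.pow_lt_pow_iff_right hp.one_lt).mp this
    omega
  have hHeq : H = A := Subgroup.eq_of_le_of_card_ge hHA (by rw [hA, hk2, hk3])
  intro x hx
  rw [← hHeq] at hx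
  obtain ⟨a, ha, j, rfl⟩ := hx
  rw [← mem_powers_iff_mem_zpowers, Submonoid.mem_powers_iff] at ha
  obtain ⟨i, rfl⟩ := ha
  have hj : z ^ j ∈ Subgroup.zpowers z := Subgroup.zpow_mem_zpowers z j
  rw [← mem_powers_iff_mem_zpowers, Submonoid.mem_powers_iff] at hj
  obtain ⟨j', hj'⟩ := hj
  exact ⟨i, j', by rw [hj']⟩

end Cfsg.Agent.Lib.Helper24.ES3
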