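import Mathlib
import Cfsg.Agent.Lib.Helper24.ES3.Defs
import Cfsg.Agent.Lib.Helper54.ES3.A5

set_option autoImplicit false

namespace Cfsg.Agent.Lib.Helper24.ES3

open scoped commutatorElement

variable {G : Type*} [Group G]

theorem B2_card_commutator [Finite G] {p : ℕ} [Fact p.Prime] {P : Subgroup G} {z : G}
    (h : Dat p P z) : Nat.card (commutator ↥P) = p := by
  have hp : p.Prime := Fact.out
  have hle : commutator ↥P ≤ Subgroup.zpowers (⟨z, h.zP⟩ : ↥P) := by
    rw [commutator_def, Subgroup.commutator_le]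
    intro a _ b _
    obtain ⟨k, hk⟩ := h.comm a a.2 b b.2
    have : ⁅a, b⁆ = (⟨z, h.zP⟩ : ↥P) ^ k := Subtype.ext (by
      rw [commutatorElement_def]
      simpa using hk)
    rw [this]
    exact Subgroup.npow_mem_zpowers _ k
  have hZ : Nat.card (Subgroup.zpowers (⟨z, h.zP⟩ : ↥P)) = p := by
    rw [Nat.card_zpowers, Subgroup.orderOf_mk, A5_orderOf h]
  have hdvd : Nat.card (commutator ↥P) ∣ p := hZ ▸ Subgroup.card_dvd_of_le hle
  rcases (Nat.dvd_prime hp).mp hdvd with h1 | h1
  · exfalso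
    apply A5_not_comm h
    intro x hx y hy
    have hbot : commutator ↥P = ⊥ := (Subgroup.card_eq_one).mp h1
    have hmem : ⁅(⟨x, hx⟩ : ↥P), ⟨y, hy⟩⁆ ∈ commutator ↥P :=
      Subgroup.commutator_mem_commutator (Subgroup.mem_top _) (Subgroup.mem_top _)
    rw [hbot, Subgroup.mem_bot, commutatorElement_eq_one_iff_mul_comm] at hmem
    exact congrArg Subtype.val hmem
  · exact h1

/-- B2 -/
theorem finrank_VV [Finite G] {p : ℕ} [Fact p.Prime] {P : Subgroup G} {z : G} (h : Dat p P z)
    [Module (ZMod p) (VV P)] : Module.finrank (ZMod p) (VV P) = 2 := by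
  have hp : p.Prime := Fact.out
  have h1 := Subgroup.card_eq_card_quotient_mul_card_subgroup (commutator ↥P)
  rw [h.card, B2_card_commutator h] at h1
  have h2 : Nat.card (VV P) = p ^ 2 := by
    have h3 : Nat.card (VV P) = Nat.card (↥P ⧸ commutator ↥P) := rfl
    rw [h3]
    have h4 : p ^ 2 * p = Nat.card (↥P ⧸ commutator ↥P) * p := by rw [← h1]; ring
    exact (Nat.eq_of_mul_eq_mul_right hp.pos h4).symm
  have h5 := Module.natCard_eq_pow_finrank (K := ZMod p) (V := VV P)
  rw [h2, Nat.card_zmod] at h5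
  exact (Nat.pow_right_injective hp.two_le h5).symm

end Cfsg.Agent.Lib.Helper24.ES3
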