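import Mathlib
import Cfsg.Agent.Lib.Helper24.ES3.Defs

set_option autoImplicit false

namespace Cfsg.Agent.Lib.Helper24.ES3

variable {G : Type*} [Group G]

theorem B3_le_ker {p : ℕ} (P : Subgroup G) [Module (ZMod p) (VV P)] :
    P.subgroupOf (Subgroup.normalizer (P : Set G)) ≤ (rho p P).ker := by
  intro u hu
  rw [Subgroup.mem_subgroupOf] at hu
  rw [MonoidHom.mem_ker]
  apply LinearEquiv.ext
  intro x
  obtain ⟨w, rfl⟩ := cls_surj P x
  have h1 := rho_cls' p P u w ((⟨u.1, hu⟩ : ↥P) * w * (⟨u.1, hu⟩ : ↥P)⁻¹) rfl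
  rw [h1]
  show Additive.ofMul (Abelianization.of ((⟨u.1, hu⟩ : ↥P) * w * (⟨u.1, hu⟩ : ↥P)⁻¹))
    = Additive.ofMul (Abelianization.of w)
  congr 1
  rw [map_mul Abelianization.of, map_mul Abelianization.of, map_inv Abelianization.of,
    mul_inv_cancel_comm]

/-- B3 -/
theorem rho_range_coprime [Finite G] {p : ℕ} [Fact p.Prime] (P : Sylow p G)
    [Module (ZMod p) (VV (P : Subgroup G))] :
    (Nat.card (rho p (P : Subgroup G)).range).Coprime p := by
  have hp : p.Prime := Fact.out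
  rw [← Subgroup.index_ker]
  have h1 : (rho p (P : Subgroup G)).ker.index ∣ (P : Subgroup G).index :=
    (Subgroup.index_dvd_of_le (B3_le_ker (P : Subgroup G))).trans
      (Subgroup.relIndex_dvd_index_of_le Subgroup.le_normalizer)
  have h2 : ¬ p ∣ (P : Subgroup G).index := P.not_dvd_index
  exact ((Nat.Prime.coprime_iff_not_dvd hp).mpr (fun h => h2 (h.trans h1))).symm

end Cfsg.Agent.Lib.Helper24.ES3
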